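import Cfsg.Agent.SP.Lie.Wiel
import Cfsg.Agent.S2119

/-!
# S5755, condition (i) for the alternating groups of degree at least seven

`A` is the stabiliser of a three-element set, `B` consists of the elements of `A` that are even on it.
-/

set_option autoImplicit false

namespace Cfsg.Agent.SP.Alt

open Subgroup Equiv Equiv.Perm

variable {α : Type*} [Fintype α] [DecidableEq α]

/-- the even permutations preserving `p` -/
def stab (p : α → Prop) : Subgroup (alternatingGroup α) where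
  carrier := {g | ∀ x, p ((g : Perm α) x) ↔ p x}
  one_mem' := fun _ => Iff.rfl
  mul_mem' := fun {a b} ha hb x => (ha _).trans (hb x)
  inv_mem' := fun {a} ha x => by
    have := ha ((a : Perm α)⁻¹ x)
    simpa using this.symm

/-- the sign on the points with `p` -/
def sgn (p : α → Prop) [DecidablePred p] : stab p →* ℤˣ where
  toFun g := sign (((g : alternatingGroup α) : Perm α).subtypePerm g.2)
  map_one' := by
    have : (((1 : stab p) : alternatingGroup α) : Perm α).subtypePerm (1 : stab p).2 = 1 := by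
      ext x; rfl
    rw [this, map_one]
  map_mul' a b := by
    rw [← map_mul]
    congr 1

omit [Fintype α] in
theorem swap_pres {q : α → Prop} {a b : α} (h : q a ↔ q b) (x : α) : q (swap a b x) ↔ q x := by
  rw [swap_apply_def]
  split_ifs with h1 h2
  · rw [h1, h]
  · rw [h2, h]
  · rfl

theorem exists_elt (p q : α → Prop) [DecidablePred p] {a b c d : α} (hab : a ≠ b) (hcd : c ≠ d) (ha : p a) (hb : p b)
    (hc : ¬ p c) (hd : ¬ p d) (h1 : q a ↔ q b) (h2 : q c ↔ q d) :
    ∃ g : stab p, (g : alternatingGroup α) ∈ stab q ∧ sgn p g ≠ 1 := by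
  have hm : swap a b * swap c d ∈ alternatingGroup α := by
    rw [mem_alternatingGroup, map_mul, sign_swap hab, sign_swap hcd]; rfl
  have hp : (⟨_, hm⟩ : alternatingGroup α) ∈ stab p := fun x =>
    (swap_pres (q := p) (iff_of_true ha hb) _).trans (swap_pres (q := p) (iff_of_false hc hd) x)
  refine ⟨⟨_, hp⟩, fun x => (swap_pres h1 _).trans (swap_pres h2 x), ?_⟩
  have : (swap a b * swap c d).subtypePerm hp = swap (⟨a, ha⟩ : {x // p x}) ⟨b, hb⟩ := by
    ext ⟨x, hx⟩
    have hxc : x ≠ c := fun h => hc (h ▸ hx)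
    have hxd : x ≠ d := fun h => hd (h ▸ hx)
    show swap a b (swap c d x) = _
    rw [swap_apply_of_ne_of_ne hxc hxd, swap_apply_def, swap_apply_def]
    simp only [Subtype.mk.injEq]
    split_ifs <;> rfl
  show sign ((swap a b * swap c d).subtypePerm hp) ≠ 1
  rw [this, sign_swap (fun h => hab (congrArg Subtype.val h))]
  decide

omit [Fintype α] [DecidableEq α] in
theorem pigeon (q : α → Prop) {a b c : α} (hab : a ≠ b) (hac : a ≠ c) (hbc : b ≠ c) (p : α → Prop) (ha : p a)
    (hb : p b) (hc : p c) : ∃ x y, x ≠ y ∧ p x ∧ p y ∧ (q x ↔ q y) := by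
  by_cases h1 : q a ↔ q b
  · exact ⟨a, b, hab, ha, hb, h1⟩
  by_cases h2 : q a ↔ q c
  · exact ⟨a, c, hac, ha, hc, h2⟩
  exact ⟨b, c, hbc, hb, hc, by tauto⟩

/-- **condition (i) of S5755 for `A_n`, `n ≥ 7`** -/
theorem pair_alt {n : ℕ} (hn : 7 ≤ n) :
    ∃ A B : Subgroup (alternatingGroup (Fin n)), A ≠ ⊤ ∧ B < A ∧ (B.subgroupOf A).Normal ∧
      ∀ τ : MulAut (alternatingGroup (Fin n)), B ⊔ (A ⊓ A.map τ.toMonoidHom) = A := by
  let p : Fin n → Prop := fun x => x.val < 3
  have ne : ∀ (i j : ℕ) (hi : i < n) (hj : j < n), i ≠ j → (⟨i, hi⟩ : Fin n) ≠ ⟨j, hj⟩ :=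
    fun i j hi hj h h' => h (congrArg Fin.val h')
  have hC : (Nat.card ℤˣ).Prime := by
    rw [Nat.card_eq_fintype_card, Fintype.card_units_int]; exact Nat.prime_two
  refine Lie.pair_of_hom_prime hC (A := stab p) ?_ (sgn p) fun τ => ?_
  · intro h
    have hm : swap (⟨0, by omega⟩ : Fin n) ⟨3, by omega⟩ * swap ⟨4, by omega⟩ ⟨5, by omega⟩ ∈
        alternatingGroup (Fin n) := by
      rw [mem_alternatingGroup, map_mul, sign_swap (ne _ _ _ _ (by omega)), sign_swap (ne _ _ _ _ (by omega))]; rfl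
    have h1 : (⟨_, hm⟩ : alternatingGroup (Fin n)) ∈ stab p := h ▸ mem_top _
    have h2 := h1 ⟨0, by omega⟩
    have h3 : (swap (⟨0, by omega⟩ : Fin n) ⟨3, by omega⟩ * swap (⟨4, by omega⟩ : Fin n) ⟨5, by omega⟩ : Perm (Fin n))
        (⟨0, by omega⟩ : Fin n) = (⟨3, by omega⟩ : Fin n) := by
      rw [Perm.mul_apply, swap_apply_of_ne_of_ne (ne 0 4 _ _ (by omega)) (ne 0 5 _ _ (by omega)), swap_apply_left]
    simp only [h3, p] at h2
    omega
  · obtain ⟨σ, rfl⟩ := (S2119.result n (by omega) (by omega)).2 τ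
    let q : Fin n → Prop := fun x => p (σ⁻¹ x)
    obtain ⟨a, b, hab, ha, hb, h1⟩ := pigeon q (ne 0 1 (by omega) (by omega) (by omega))
      (ne 0 2 (by omega) (by omega) (by omega)) (ne 1 2 (by omega) (by omega) (by omega)) p
      (show 0 < 3 by omega) (show 1 < 3 by omega) (show 2 < 3 by omega)
    obtain ⟨c, d, hcd, hc, hd, h2⟩ := pigeon q (ne 3 4 (by omega) (by omega) (by omega))
      (ne 3 5 (by omega) (by omega) (by omega)) (ne 4 5 (by omega) (by omega) (by omega)) (fun x => ¬ p x)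
      (show ¬ 3 < 3 by omega) (show ¬ 4 < 3 by omega) (show ¬ 5 < 3 by omega)
    obtain ⟨g, hg, hs⟩ := exists_elt p q hab hcd ha hb hc hd h1 h2
    refine ⟨g, ⟨(MulAut.conjNormal σ).symm g, fun x => ?_, by simp⟩, hs⟩
    have h3 := hg (σ x)
    simpa [q] using h3

end Cfsg.Agent.SP.Alt
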